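import Mathlib

/-!
An endomorphism `X` of prime order `q` without fixed vectors on a finite `𝔽_p`-space:
transitivity of its normalizer on nonzero vectors versus `p` being a primitive root modulo `q`.
Extension of compatible automorphisms of a normal subgroup and a complement.
-/

set_option autoImplicit false

namespace CfsgLib.AutOrb

open Polynomial

universe u

/-- Compatible automorphisms of a normal subgroup and of a complement extend to the group. -/
theorem exists_mulAut_extend {G : Type u} [Group G] {N H : Subgroup G} [N.Normal]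
    (h : N.IsComplement' H) (fn : N ≃* N) (fg : H ≃* H)
    (hc : ∀ (g : H) (n : N), (fn (MulAut.conjNormal (g : G) n) : G) = fg g * fn n * (fg g : G)⁻¹) :
    ∃ σ : MulAut G, (∀ n : N, σ n = fn n) ∧ ∀ g : H, σ g = fg g := by
  let e := SemidirectProduct.mulEquivSubgroup h
  let c := SemidirectProduct.congr (φ₁ := (N.normalizerMonoidHom).comp
    (Subgroup.inclusion (N.normalizer_eq_top ▸ le_top : H ≤ _))) (φ₂ := (N.normalizerMonoidHom).comp
    (Subgroup.inclusion (N.normalizer_eq_top ▸ le_top : H ≤ _))) fn fg (fun g => by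
      ext n
      exact hc g n)
  have hl : ∀ n : N, e (SemidirectProduct.inl n) = n := fun n => by simp [e]
  have hr : ∀ g : H, e (SemidirectProduct.inr g) = g := fun g => by simp [e]
  refine ⟨(e.symm.trans c).trans e, fun n => ?_, fun g => ?_⟩
  · rw [← hl n, ← hl (fn n)]
    simp only [MulEquiv.trans_apply, MulEquiv.symm_apply_apply]
    congr 1
    ext <;> simp [c]
  · rw [← hr g, ← hr (fg g)]
    simp only [MulEquiv.trans_apply, MulEquiv.symm_apply_apply]
    congr 1
    ext <;> simp [c]

/-- The general linear group of a finite-dimensional space is transitive on nonzero vectors. -/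
theorem exists_linearEquiv_apply_eq {F V : Type*} [Field F] [AddCommGroup V] [Module F V]
    [FiniteDimensional F V] {v w : V} (hv : v ≠ 0) (hw : w ≠ 0) : ∃ T : V ≃ₗ[F] V, T v = w := by
  obtain ⟨T, hT⟩ := Submodule.exists_linearEquiv_restrict_eq
    ((LinearEquiv.toSpanNonzeroSingleton F V v hv).symm.trans
      (LinearEquiv.toSpanNonzeroSingleton F V w hw))
  refine ⟨T, ?_⟩
  have h1 := hT ((LinearEquiv.toSpanNonzeroSingleton F V v hv) 1)
  rw [LinearEquiv.trans_apply, LinearEquiv.symm_apply_apply] at h1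
  simpa using h1.symm

variable {p q : ℕ} [hp : Fact p.Prime] [hq : Fact q.Prime] {V : Type*} [AddCommGroup V]
  [Module (ZMod p) V] {X : Module.End (ZMod p) V}

theorem aeval_cyclotomic_eq_zero (hX : X ^ q = 1) (hfix : ∀ v, X v = v → v = 0) :
    aeval X (cyclotomic q (ZMod p)) = 0 := by
  ext v
  apply hfix
  have h := congrArg (aeval X) (cyclotomic_prime_mul_X_sub_one (ZMod p) q)
  rw [mul_comm, map_mul, map_sub, map_sub, map_pow, aeval_X, map_one, hX, sub_self] at h
  have h2 := LinearMap.congr_fun h v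
  simpa [sub_eq_zero] using h2

omit hp in
theorem orderOf_natCast_eq (hpq : p.Coprime q) :
    orderOf (ZMod.unitOfCoprime (p ^ 1) (hpq.pow_left 1)) = orderOf (p : ZMod q) := by
  rw [← orderOf_units, ZMod.coe_unitOfCoprime, pow_one]

/-- The cyclic submodule generated by `v`. -/
def cyc (X : Module.End (ZMod p) V) (v : V) : Submodule (ZMod p) V :=
  Submodule.span (ZMod p) (Set.range fun i : ℕ => (X ^ i) v)

theorem self_mem_cyc (v : V) : v ∈ cyc X v := Submodule.subset_span ⟨0, by simp⟩

theorem map_mem_cyc {v w : V} {T : Module.End (ZMod p) V} {k : ℕ} (hT : T * X = X ^ k * T)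
    (h : w ∈ cyc X v) : T w ∈ cyc X (T v) := by
  have h1 : ∀ i, T * X ^ i = X ^ (k * i) * T := by
    intro i
    induction i with
    | zero => simp
    | succ i ih => rw [pow_succ, ← mul_assoc, ih, mul_assoc, hT, ← mul_assoc, ← pow_add, mul_add,
        mul_one]
  have : (cyc X v).map T ≤ cyc X (T v) := by
    rw [cyc, Submodule.map_span_le]
    rintro _ ⟨i, rfl⟩
    exact Submodule.subset_span ⟨k * i, (LinearMap.congr_fun (h1 i) v).symm⟩
  exact this (Submodule.mem_map_of_mem h)

theorem cyc_le {v w : V} (h : w ∈ cyc X v) : cyc X w ≤ cyc X v := by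
  have h1 : ∀ u ∈ cyc X v, X u ∈ cyc X v := by
    intro u hu
    have : (cyc X v).map X ≤ cyc X v := by
      rw [cyc, Submodule.map_span_le]
      rintro _ ⟨i, rfl⟩
      exact Submodule.subset_span ⟨i + 1, by simp [pow_succ']⟩
    exact this (Submodule.mem_map_of_mem hu)
  rw [cyc, Submodule.span_le]
  rintro _ ⟨i, rfl⟩
  induction i with
  | zero => simpa using h
  | succ i ih => simpa [pow_succ'] using h1 _ ih

theorem aeval_mem_cyc (f : (ZMod p)[X]) (v : V) : aeval X f v ∈ cyc X v := by
  rw [aeval_eq_sum_range, LinearMap.sum_apply]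
  exact Submodule.sum_mem _ fun i _ => Submodule.smul_mem _ _ (Submodule.subset_span ⟨i, rfl⟩)

theorem orderOf_eq_of_transitive [Finite V] [Nontrivial V] (hpq : p ≠ q) (hX : X ^ q = 1)
    (hfix : ∀ v, X v = v → v = 0)
    (h1 : ∀ v w : V, v ≠ 0 → w ≠ 0 → ∃ (T : V ≃ₗ[ZMod p] V) (k : ℕ), T v = w ∧
      (T : Module.End (ZMod p) V) * X = X ^ k * T)
    (h2 : ∀ k, 0 < k → k < q → ∃ T : V ≃ₗ[ZMod p] V,
      (T : Module.End (ZMod p) V) * X = X ^ k * T) : orderOf (p : ZMod q) = q - 1 := by
  classical
  have hcop : p.Coprime q := (Nat.coprime_primes hp.out hq.out).mpr hpq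
  have hcard : ∀ v w : V, v ≠ 0 → w ≠ 0 → Nat.card (cyc X v) ≤ Nat.card (cyc X w) := by
    intro v w hv hw
    obtain ⟨T, k, rfl, hT⟩ := h1 v w hv hw
    exact Nat.card_le_card_of_injective (fun u => ⟨T u, map_mem_cyc hT u.2⟩)
      fun a b h => Subtype.ext (T.injective (congrArg Subtype.val h))
  have heq : ∀ v w : V, w ≠ 0 → w ∈ cyc X v → cyc X w = cyc X v := by
    intro v w hw h
    have hv : v ≠ 0 := by
      rintro rfl
      apply hw
      have : cyc X (0 : V) = ⊥ := by simp [cyc]
      simpa [this] using h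
    exact SetLike.coe_injective (Set.Finite.eq_of_subset_of_card_le (Set.toFinite _) (cyc_le h)
      (hcard _ _ hv hw))
  have hann : ∀ (f : (ZMod p)[X]) (v : V), v ≠ 0 → aeval X f v = 0 → aeval X f = 0 := by
    intro f v hv hf
    ext w
    by_contra hw
    have hw0 : aeval X f w ≠ 0 := hw
    have e1 : aeval X f (v + w) = aeval X f w := by rw [map_add, hf, zero_add]
    have e2 := heq w _ hw0 (aeval_mem_cyc f w)
    have e3 := heq (v + w) _ (e1 ▸ hw0) (aeval_mem_cyc f (v + w))
    have e4 : v ∈ cyc X w := by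
      have := Submodule.sub_mem _ (show v + w ∈ cyc X w by
        rw [← e2, ← e1, e3]; exact self_mem_cyc _) (self_mem_cyc w)
      rwa [add_sub_cancel_right] at this
    have e5 : w ∈ cyc X v := by rw [heq w v hv e4]; exact self_mem_cyc _
    have e6 := map_mem_cyc (T := aeval X f) (k := 1) (by
      have := congrArg (aeval X) (mul_comm f Polynomial.X)
      rwa [map_mul, map_mul, aeval_X, ← pow_one X] at this) e5
    rw [hf] at e6
    apply hw0
    have : cyc X (0 : V) = ⊥ := by simp [cyc]
    simpa [this] using e6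
  have hint : IsIntegral (ZMod p) X := Algebra.IsIntegral.isIntegral X
  have hprime : Prime (minpoly (ZMod p) X) := by
    refine ⟨minpoly.ne_zero hint, minpoly.not_isUnit _ _, fun g h hgh => ?_⟩
    rw [minpoly.dvd_iff] at hgh ⊢
    rw [minpoly.dvd_iff]
    by_cases hh : aeval X h = 0
    · exact Or.inr hh
    · obtain ⟨v, hv⟩ : ∃ v, aeval X h v ≠ 0 := by
        by_contra hc
        push Not at hc
        exact hh (LinearMap.ext hc)
      refine Or.inl (hann g _ hv ?_)
      rw [map_mul] at hgh
      exact LinearMap.congr_fun hgh v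
  set m := minpoly (ZMod p) X with hm
  have hmd : m ∣ cyclotomic q (ZMod p) := minpoly.dvd _ _ (aeval_cyclotomic_eq_zero hX hfix)
  have hdeg := natDegree_of_dvd_cyclotomic_of_irreducible (K := ZMod p) (p := p) (f := 1)
    (by simp) hcop hmd hprime.irreducible
  rw [orderOf_natCast_eq hcop] at hdeg
  rw [← hdeg]
  apply le_antisymm
  · have := natDegree_le_of_dvd hmd (cyclotomic_ne_zero _ _)
    rwa [natDegree_cyclotomic, Nat.totient_prime hq.out] at this
  have : Fact (Irreducible m) := ⟨hprime.irreducible⟩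
  let F := AdjoinRoot m
  have : CharP F p := charP_of_injective_algebraMap (algebraMap (ZMod p) F).injective p
  have : NeZero (q : F) := ⟨fun h => hpq ((Nat.prime_dvd_prime_iff_eq hp.out hq.out).mp
    ((CharP.cast_eq_zero_iff F p q).mp h))⟩
  have hζ : IsPrimitiveRoot (AdjoinRoot.root m) q := by
    rw [← isRoot_cyclotomic_iff, ← map_cyclotomic q (algebraMap (ZMod p) F)]
    exact (AdjoinRoot.isRoot_root m).dvd (Polynomial.map_dvd _ hmd)
  have hroot : ∀ k, 0 < k → k < q → AdjoinRoot.root m ^ k ∈ (m.map (algebraMap (ZMod p) F)).roots := by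
    intro k hk hkq
    obtain ⟨T, hT⟩ := h2 k hk hkq
    have e1 : (T.conjAlgEquiv (ZMod p)) X = X ^ k := by
      ext v
      have := LinearMap.congr_fun hT (T.symm v)
      simpa using this
    have e2 : minpoly (ZMod p) (X ^ k) = m := by rw [← e1, minpoly.algEquiv_eq]
    have e3 : m ∣ m.comp (Polynomial.X ^ k) := by
      apply minpoly.dvd
      rw [aeval_comp, map_pow, aeval_X, ← e2, minpoly.aeval]
    rw [mem_roots (Polynomial.map_ne_zero hprime.ne_zero), IsRoot.def, eval_map_algebraMap]
    obtain ⟨g, hg⟩ := e3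
    have e4 := congrArg (aeval (AdjoinRoot.root m)) hg
    rw [aeval_comp, map_pow, aeval_X, map_mul, AdjoinRoot.aeval_eq, AdjoinRoot.mk_self,
      zero_mul] at e4
    exact e4
  calc q - 1 = (Finset.Ioo 0 q).card := by simp
    _ ≤ (m.map (algebraMap (ZMod p) F)).roots.toFinset.card := by
      refine Finset.card_le_card_of_injOn (fun k => AdjoinRoot.root m ^ k) ?_ ?_
      · intro k hk
        rw [Finset.coe_Ioo] at hk
        exact Finset.mem_coe.mpr (Multiset.mem_toFinset.mpr (hroot k hk.1 hk.2))
      · intro a ha b hb h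
        rw [Finset.coe_Ioo] at ha hb
        exact hζ.pow_inj ha.2 hb.2 h
    _ ≤ _ := (Multiset.toFinset_card_le _).trans ((card_roots' _).trans natDegree_map_le)

theorem transitive_of_orderOf_eq [Finite V] (hpq : p ≠ q) (hX : X ^ q = 1)
    (hfix : ∀ v, X v = v → v = 0) (ho : orderOf (p : ZMod q) = q - 1) :
    (∀ v w : V, v ≠ 0 → w ≠ 0 → ∃ T : V ≃+ V, T v = w ∧ ∀ u, T (X u) = X (T u)) ∧
      ∃ T : V ≃+ V, ∀ u, T (X u) = (X ^ p) (T u) := by
  classical
  have hcop : p.Coprime q := (Nat.coprime_primes hp.out hq.out).mpr hpq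
  have hirr : Irreducible (cyclotomic q (ZMod p)) :=
    irreducible_of_dvd_cyclotomic_of_natDegree (K := ZMod p) (p := p) (f := 1) (by simp) hcop
      dvd_rfl (by rw [orderOf_natCast_eq hcop, ho, natDegree_cyclotomic, Nat.totient_prime hq.out])
  have : Fact (Irreducible (cyclotomic q (ZMod p))) := ⟨hirr⟩
  let F := AdjoinRoot (cyclotomic q (ZMod p))
  let ψ : F →+* Module.End (ZMod p) V := Ideal.Quotient.lift (Ideal.span {cyclotomic q (ZMod p)})
    (aeval X : (ZMod p)[X] →ₐ[ZMod p] _).toRingHom (fun a ha => by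
      obtain ⟨b, rfl⟩ := Ideal.mem_span_singleton'.mp ha
      simp [aeval_cyclotomic_eq_zero hX hfix])
  have hψ : ψ (AdjoinRoot.root _) = X := aeval_X X
  let _ : Module F V := Module.compHom V ψ
  have hs : ∀ (c : F) (v : V), c • v = ψ c v := fun _ _ => rfl
  have : Module.Finite F V := Module.Finite.of_finite
  constructor
  · intro v w hv hw
    obtain ⟨T, hT⟩ := exists_linearEquiv_apply_eq (F := F) hv hw
    refine ⟨T.toAddEquiv, hT, fun u => ?_⟩
    have := T.map_smul (AdjoinRoot.root _) u
    rwa [hs, hs, hψ] at this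
  · have : CharP F p := charP_of_injective_algebraMap (algebraMap (ZMod p) F).injective p
    have : Module.Finite (ZMod p) F := (cyclotomic.monic q (ZMod p)).finite_adjoinRoot
    have : Finite F := Module.finite_of_finite (ZMod p)
    let b := Module.finBasis F V
    let φ := (frobeniusEquiv F p).toAddEquiv
    refine ⟨(b.equivFun.toAddEquiv.trans (AddEquiv.piCongrRight fun _ => φ)).trans
      b.equivFun.symm.toAddEquiv, fun u => ?_⟩
    rw [← hψ, ← map_pow, ← hs, ← hs]
    apply b.equivFun.injective
    ext i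
    simp only [AddEquiv.trans_apply, LinearEquiv.coe_toAddEquiv, map_smul,
      LinearEquiv.coe_addEquiv_apply, LinearEquiv.apply_symm_apply]
    simp [φ, mul_pow, frobenius_def]

end CfsgLib.AutOrb
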